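import Cfsg.Agent.H1.Cores

/-! Piece L: primes not dividing the number of Sylow 2-subgroups do not divide `|O^{2'}(G)|` (solvable `G`). -/

set_option autoImplicit false

namespace Cfsg.Agent.RT

open Subgroup

universe u

namespace PL

theorem aux {p : ℕ} (hp : p.Prime) (h2 : p ≠ 2) (n : ℕ) : ∀ (G : Type u) [Group G] [Finite G], Nat.card G = n →
    Group.IsSolvable G → ∀ S : Sylow 2 G, ¬ p ∣ (normalizer ((S : Subgroup G) : Set G)).index →
      ¬ p ∣ Nat.card (closure {g : G | ∃ k : ℕ, orderOf g = 2 ^ k}) := by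
  induction n using Nat.strong_induction_on with
  | _ n ih =>
  intro G _ _ hc hs S hn hd
  have f2 : Fact (Nat.Prime 2) := ⟨Nat.prime_two⟩
  have fp : Fact p.Prime := ⟨hp⟩
  set K := closure {g : G | ∃ k : ℕ, orderOf g = 2 ^ k} with hK
  rcases subsingleton_or_nontrivial G with h0 | h0
  · rw [Nat.card_of_subsingleton (1 : K)] at hd
    exact hp.one_lt.ne' (Nat.dvd_one.1 hd)
  obtain ⟨r, hr, hN⟩ := H1.exists_pCore_ne_bot hs
  have fr : Fact r.Prime := ⟨hr⟩
  have pN := H1.isPGroup_pCore r G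
  have leS : ∀ P : Sylow r G, Cfsg.pCore r G ≤ P := H1.pCore_le_sylow
  set N := Cfsg.pCore r G with hNdef
  have nN : N.Normal := inferInstance
  let f := QuotientGroup.mk' N
  have hf : Function.Surjective f := QuotientGroup.mk'_surjective N
  have lt : Nat.card (G ⧸ N) < n := by
    have h1 := N.card_mul_index
    have h3 : 1 < Nat.card N := (one_lt_card_iff_ne_bot N).2 hN
    have h4 : 0 < N.index := Nat.pos_of_ne_zero index_ne_zero_of_finite
    rw [← hc, ← h1]
    change N.index < _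
    nlinarith
  have q := ih _ lt (G ⧸ N) rfl inferInstance (S.mapSurjective hf) (fun h => hn
    (h.trans ((index_dvd_of_le (le_normalizer_map f)).trans (index_map_dvd _ hf))))
  have hKm : K.map f ≤ closure {g : G ⧸ N | ∃ k : ℕ, orderOf g = 2 ^ k} := by
    rw [map_le_iff_le_comap, hK, closure_le]
    rintro g ⟨k, hk⟩
    obtain ⟨j, -, hj⟩ := (Nat.dvd_prime_pow Nat.prime_two).1 (hk ▸ orderOf_map_dvd f g)
    exact subset_closure ⟨j, hj⟩
  let Z : Subgroup K := N.subgroupOf K
  have iZ : ¬ p ∣ Z.index := by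
    have e : Z.index = Nat.card (K.map f) := by
      rw [← relIndex_ker, QuotientGroup.ker_mk']; rfl
    rw [e]
    exact fun h => q (h.trans (card_dvd_of_le hKm))
  have dZ : p ∣ Nat.card Z := by
    rw [← Z.card_mul_index] at hd
    exact (hp.dvd_mul.1 hd).resolve_right iZ
  obtain ⟨k, hk⟩ := (pN.comap_subtype (K := K)).exists_card_eq
  have hk' : Nat.card Z = r ^ k := hk
  obtain rfl : p = r := (Nat.prime_dvd_prime_iff_eq hp hr).1 (hp.dvd_of_dvd_pow (hk' ▸ dZ))
  have NH : N ≤ normalizer ((S : Subgroup G) : Set G) := by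
    obtain ⟨P⟩ : Nonempty (Sylow p (normalizer ((S : Subgroup G) : Set G))) := inferInstance
    have i : ¬ p ∣ ((P : Subgroup _).map (normalizer ((S : Subgroup G) : Set G)).subtype).index := by
      rw [index_map_subtype]
      exact fun h => (hp.dvd_mul.1 h).elim P.not_dvd_index hn
    exact (leS ((P.isPGroup'.map _).toSylow i)).trans (map_subtype_le _)
  have dj : Disjoint N (S : Subgroup G) := IsPGroup.disjoint_of_ne p 2 h2 _ _ pN S.isPGroup'
  have SC : (S : Subgroup G) ≤ centralizer (N : Set G) := by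
    intro s hs x hx
    have h1 : x * s * x⁻¹ * s⁻¹ ∈ (S : Subgroup G) :=
      mul_mem ((mem_normalizer_iff.1 (NH hx) s).1 hs) (inv_mem hs)
    have h3 : x * s * x⁻¹ * s⁻¹ ∈ N := by
      have := mul_mem hx (nN.conj_mem _ (inv_mem hx) s)
      simpa [mul_assoc] using this
    have := disjoint_def.1 dj h3 h1
    rw [mul_inv_eq_one, mul_inv_eq_iff_eq_mul] at this
    exact this
  have KC : K ≤ centralizer (N : Set G) := by
    rw [hK, closure_le]
    rintro g ⟨j, hj⟩
    have pg : IsPGroup 2 (zpowers g) := IsPGroup.of_card (by rw [Nat.card_zpowers, hj])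
    obtain ⟨R, hR⟩ := pg.exists_le_sylow
    obtain ⟨c, rfl⟩ := MulAction.exists_smul_eq G S R
    have h1 := hR (mem_zpowers g)
    rw [Sylow.coe_subgroup_smul, mem_pointwise_smul_iff_inv_smul_mem] at h1
    have := (inferInstance : (centralizer (N : Set G)).Normal).conj_mem _ (SC h1) c
    simpa [mul_assoc] using this
  obtain ⟨L, hL⟩ := exists_right_complement'_of_coprime (N := Z)
    (by rw [hk']; exact Nat.Coprime.pow_left _ ((Nat.Prime.coprime_iff_not_dvd hp).2 iZ))
  have nL : L.Normal := ⟨fun l hl g => by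
    obtain ⟨⟨z, m⟩, rfl⟩ := hL.2 g
    have h1 : (m : K) * l * (m : K)⁻¹ ∈ L := mul_mem (mul_mem m.2 hl) (inv_mem m.2)
    have h3 : (z : K) * ((m : K) * l * (m : K)⁻¹) = ((m : K) * l * (m : K)⁻¹) * z :=
      Subtype.ext (KC ((m : K) * l * (m : K)⁻¹).2 _ z.2)
    have e : (z : K) * m * l * ((z : K) * m)⁻¹ = (z : K) * ((m : K) * l * (m : K)⁻¹) * (z : K)⁻¹ := by group
    change (z : K) * m * l * ((z : K) * m)⁻¹ ∈ L
    rw [e, h3, mul_inv_cancel_right]; exact h1⟩
  have iL : L.index = p ^ k := by rw [hL.index_eq_card, hk']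
  have top : K ≤ L.map K.subtype := by
    conv_lhs => rw [hK]
    rw [closure_le]
    rintro g ⟨j, hj⟩
    have gK : g ∈ K := subset_closure ⟨j, hj⟩
    have h1 := L.pow_index_mem ⟨g, gK⟩
    obtain ⟨m, hm⟩ := exists_pow_eq_self_of_coprime (x := (⟨g, gK⟩ : K)) (n := L.index) (by
      rw [iL, ← orderOf_coe]
      change (p ^ k).Coprime (orderOf g)
      rw [hj]
      exact Nat.Coprime.pow _ _ ((Nat.coprime_primes hp Nat.prime_two).2 h2))
    exact ⟨⟨g, gK⟩, hm ▸ pow_mem h1 m, rfl⟩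
  have eL : L = ⊤ := by
    rw [eq_top_iff]
    intro x _
    obtain ⟨y, hy, e⟩ := top x.2
    rwa [← Subtype.ext e]
  rw [← hL.index_eq_card, eL, index_top] at dZ
  exact hp.one_lt.ne' (Nat.dvd_one.1 dZ)

end PL

theorem pl {G : Type u} [Group G] [Finite G] (hs : Group.IsSolvable G) {p : ℕ} (hp : p.Prime) (h2 : p ≠ 2)
    (S : Sylow 2 G) (hn : ¬ p ∣ (normalizer ((S : Subgroup G) : Set G)).index) :
    ¬ p ∣ Nat.card (closure {g : G | ∃ k : ℕ, orderOf g = 2 ^ k}) :=
  PL.aux hp h2 _ G rfl hs S hn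

end Cfsg.Agent.RT
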