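import Cfsg.Agent.H1.Coprime
import Cfsg.Agent.H2.Basic

/-! Coprime orbits on an abelian normal 2-subgroup. -/

set_option autoImplicit false

namespace Cfsg.Agent.RT

open Subgroup
open scoped commutatorElement

universe u

namespace PY

theorem uq {G : Type u} [Group G] {E1 E2 : Subgroup G} [E1.Normal] [E2.Normal] (d : E1 ⊓ E2 = ⊥)
    {x y g : G} (hx : x ∈ E1) (hy : y ∈ E2) (hg : g ∈ centralizer ({x * y} : Set G)) :
    g ∈ centralizer ({x} : Set G) ∧ g ∈ centralizer ({y} : Set G) := by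
  simp only [mem_centralizer_singleton_iff] at hg ⊢
  have e : x⁻¹ * (g * x * g⁻¹) = y * (g * y * g⁻¹)⁻¹ := by
    calc _ = x⁻¹ * (g * (x * y)) * y⁻¹ * g⁻¹ := by group
      _ = _ := by rw [hg]; group
  have h1 : x⁻¹ * (g * x * g⁻¹) ∈ E1 ⊓ E2 :=
    mem_inf.2 ⟨mul_mem (inv_mem hx) (Normal.conj_mem inferInstance _ hx _),
      e ▸ mul_mem hy (inv_mem (Normal.conj_mem inferInstance _ hy _))⟩
  rw [d, mem_bot] at h1
  rw [h1, eq_comm, mul_inv_eq_one] at e
  rw [inv_mul_eq_one] at h1
  exact ⟨by rw [← mul_inv_eq_iff_eq_mul, ← h1], by rw [← mul_inv_eq_iff_eq_mul, ← e]⟩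

theorem key {G : Type u} [Group G] [Finite G] (hs : Group.IsSolvable G) (n : ℕ) :
    ∀ (E : Subgroup G) [E.Normal], Nat.card E = n → (∀ a ∈ E, ∀ b ∈ E, a * b = b * a) →
      IsPGroup 2 E → Odd (centralizer (E : Set G)).index → ∀ a ∈ E, ∀ b ∈ E,
      (centralizer ({a} : Set G)).index.Coprime (centralizer ({b} : Set G)).index →
      centralizer ({a * b} : Set G) ≤ centralizer ({a} : Set G) ⊓ centralizer ({b} : Set G) := by
  induction n using Nat.strong_induction_on with
  | _ n ih =>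
  intro E _ hn ab hE ho
  set C := centralizer (E : Set G) with hC
  by_cases hCt : C = ⊤
  · intro a ha b hb _ g _
    have hg : g ∈ C := hCt ▸ mem_top g
    exact ⟨mem_centralizer_singleton_iff.2 (hg a ha).symm, mem_centralizer_singleton_iff.2 (hg b hb).symm⟩
  have : Nontrivial (G ⧸ C) := QuotientGroup.nontrivial_iff.2 hCt
  obtain ⟨M0, hM0, -, r, hr, hMr⟩ := H2.exists_isMinNormal_of_isSolvable (G := G ⧸ C)
  have := Fact.mk hr
  have := hM0.normal
  have hr2 : r ≠ 2 := by
    rintro rfl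
    obtain ⟨k, hk⟩ := IsPGroup.iff_card.1 hMr
    have h1 : 2 ^ k ∣ C.index := hk ▸ card_subgroup_dvd_card M0
    rcases k with _ | k
    · exact hM0.ne_bot (card_eq_one.1 (by simpa using hk))
    · exact (Nat.not_even_iff_odd.2 ho) (even_iff_two_dvd.2 ((dvd_pow_self 2 k.succ_ne_zero).trans h1))
  set M := M0.comap (QuotientGroup.mk' C) with hM
  have hMC : ¬ M ≤ C := fun hh => hM0.ne_bot (eq_bot_iff.2 fun x hx => by
    obtain ⟨g, rfl⟩ := QuotientGroup.mk'_surjective C x
    exact (QuotientGroup.eq_one_iff g).2 (hh hx))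
  have main : ∀ a ∈ E, ∀ b ∈ E,
      (centralizer ({a} : Set G)).index.Coprime (centralizer ({b} : Set G)).index →
      ¬ r ∣ (centralizer ({a} : Set G)).index →
      centralizer ({a * b} : Set G) ≤ centralizer ({a} : Set G) ⊓ centralizer ({b} : Set G) := by
    intro a ha b hb co hra
    obtain ⟨P⟩ : Nonempty (Sylow r (centralizer ({a} : Set G))) := inferInstance
    let R : Sylow r G := (P.isPGroup'.map (centralizer ({a} : Set G)).subtype).toSylow (by
      rw [index_map_subtype]
      exact fun h => ((Nat.Prime.dvd_mul hr).1 h).elim P.not_dvd_index hra)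
    have hRa : (R : Subgroup G) ≤ centralizer ({a} : Set G) := map_subtype_le _
    set A := (R : Subgroup G) ⊓ M with hA
    have dec : ∀ m ∈ M, ∃ x ∈ A, x⁻¹ * m ∈ C := by
      intro m hm
      have h1 : M0 ≤ (R.mapSurjective (QuotientGroup.mk'_surjective C) : Subgroup (G ⧸ C)) :=
        hMr.le_sylow_of_normal _
      obtain ⟨x, hx, e⟩ := h1 hm
      exact ⟨x, mem_inf.2 ⟨hx, by rw [hM, mem_comap, e]; exact hm⟩, QuotientGroup.eq.1 e⟩
    have hcm : ∀ e ∈ E, ∀ m x : G, x⁻¹ * m ∈ C → m * e * m⁻¹ = x * e * x⁻¹ := by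
      intro e he m x h
      calc _ = x * (x⁻¹ * m * e) * m⁻¹ := by group
        _ = _ := by rw [← h e he]; group
    have hcop : (Nat.card A).Coprime (Nat.card E) :=
      IsPGroup.coprime_card_of_ne r 2 hr2 _ _ (R.isPGroup'.to_le inf_le_left) hE
    have hAn : A ≤ normalizer (E : Set G) := by rw [normalizer_eq_top]; exact le_top
    have e1 : E ⊓ centralizer (A : Set G) = E ⊓ centralizer (M : Set G) := by
      refine le_antisymm (fun e he => ⟨he.1, fun m hm => ?_⟩)
        (inf_le_inf_left _ (centralizer_le (SetLike.coe_subset_coe.2 inf_le_right)))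
      obtain ⟨x, hx, hc⟩ := dec m hm
      rw [← mul_inv_eq_iff_eq_mul, hcm e he.1 m x hc, he.2 x hx, mul_inv_cancel_right]
    have e2 : ⁅E, A⁆ = ⁅E, M⁆ := by
      refine le_antisymm (commutator_mono le_rfl inf_le_right) (commutator_le.2 fun e he m hm => ?_)
      obtain ⟨x, hx, hc⟩ := dec m hm
      have : ⁅e, m⁆ = ⁅e, x⁆ := by
        simp only [commutatorElement_def, mul_assoc]
        rw [← mul_assoc m, ← mul_assoc x, hcm _ (inv_mem he) m x hc]
      rw [this]
      exact commutator_mem_commutator he hx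
    have : IsMulCommutative E := ⟨⟨fun x y => Subtype.ext (ab x x.2 y y.2)⟩⟩
    have h1 := H1.commutator_sup_centralizer hAn hcop (Or.inl inferInstance)
    have h2 := H1.inf_centralizer_inf_commutator_eq_bot hAn hcop
    rw [e1, e2] at h1 h2
    have ha1 : a ∈ E ⊓ centralizer (M : Set G) := by
      rw [← e1]
      exact ⟨ha, fun x hx => mem_centralizer_singleton_iff.1 (hRa hx.1)⟩
    set E1 := E ⊓ centralizer (M : Set G) with hE1
    rw [sup_comm] at h1
    obtain ⟨b1, hb1, b2, hb2, rfl⟩ := mem_sup_of_normal_right.1 (h1.symm ▸ hb : b ∈ E1 ⊔ ⁅E, M⁆)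
    have hlt : Nat.card E1 < n := by
      rw [← hn]
      refine lt_of_le_of_ne (card_le_of_le inf_le_left) fun e => hMC ?_
      have h3 : E1 = E := eq_of_le_of_card_ge inf_le_left e.ge
      exact le_centralizer_iff.1 (h3 ▸ inf_le_right)
    intro g hg
    rw [← mul_assoc] at hg
    obtain ⟨g1, g2⟩ := uq h2 (mul_mem ha1 hb1) hb2 hg
    have h4 := ih _ hlt E1 rfl (fun x hx y hy => ab x hx.1 y hy.1) (hE.to_le inf_le_left)
      (ho.of_dvd_nat (index_dvd_of_le (centralizer_le (SetLike.coe_subset_coe.2 inf_le_left))))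
      a ha1 b1 hb1 (co.coprime_dvd_right (index_dvd_of_le fun x hx => (uq h2 hb1 hb2 hx).1)) g1
    refine ⟨h4.1, mem_centralizer_singleton_iff.2 ?_⟩
    rw [← mul_assoc, mem_centralizer_singleton_iff.1 h4.2, mul_assoc,
      mem_centralizer_singleton_iff.1 g2, mul_assoc]
  intro a ha b hb co
  by_cases hra : r ∣ (centralizer ({a} : Set G)).index
  · rw [ab a ha b hb, inf_comm]
    exact main b hb a ha co.symm fun h => hr.one_lt.ne' (Nat.eq_one_of_dvd_coprimes co hra h)
  · exact main a ha b hb co hra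

end PY

theorem yu {G : Type u} [Group G] [Finite G] (hs : Group.IsSolvable G) (E : Subgroup G) [E.Normal]
    (ab : ∀ a ∈ E, ∀ b ∈ E, a * b = b * a) (hE : IsPGroup 2 E)
    (ho : Odd (centralizer (E : Set G)).index) {a b : G} (ha : a ∈ E) (hb : b ∈ E)
    (co : (centralizer ({a} : Set G)).index.Coprime (centralizer ({b} : Set G)).index) :
    centralizer ({a * b} : Set G) ≤ centralizer ({a} : Set G) :=
  (PY.key hs _ E rfl ab hE ho a ha b hb co).trans inf_le_left

end Cfsg.Agent.RT
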